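import Cfsg.Agent.ChevTwSec.G2Sec
import Cfsg.Agent.GFour25.Basic
import Cfsg.Agent.HJGFour.Data

/-!
A bit representation of the fourteen-dimensional module of the group of type G2 over four elements.
-/

set_option autoImplicit false

open Cfsg Cfsg.Lie Matrix

namespace Cfsg.Agent.HJGFour

open Cfsg.Agent.GFour25

/-- the group of type G2 over the field with four elements -/
abbrev G24 : Type := ↥(chevG2.group F4)

/-- the module -/
abbrev Vec : Type := chevG2.Idx → F4

/-- the position of a coordinate -/
def pos : chevG2.Idx → ℕ := Sum.elim (fun i => i.val) (fun r => 2 + r.val)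

/-- the vector of a bit pattern -/
def dec (v : ℕ) : Vec := fun i => ⟨v.testBit (2 * pos i), v.testBit (2 * pos i + 1)⟩

/-- the bit pattern of a vector -/
def enc (u : Vec) : ℕ :=
  ∑ i, ((if (u i).re then 2 ^ (2 * pos i) else 0) + (if (u i).im then 2 ^ (2 * pos i + 1) else 0))

theorem dec_zero : dec 0 = 0 := by
  funext i
  simp only [dec, Nat.zero_testBit]
  rfl

theorem dec_xor (a b : ℕ) : dec (a ^^^ b) = dec a + dec b := by
  funext i
  simp only [dec, Nat.testBit_xor]
  rfl

theorem dec_foldr {α : Type*} (f : α → ℕ) (l : List α) :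
    dec (l.foldr (fun b o => f b ^^^ o) 0) = (l.map fun b => dec (f b)).sum := by
  induction l with
  | nil => exact dec_zero
  | cons b l ih => rw [List.foldr_cons, dec_xor, ih, List.map_cons, List.sum_cons]

/-- a pattern rebuilt from its bits -/
def rebuild (n v : ℕ) : ℕ :=
  (List.range n).foldr (fun b o => (if v.testBit b then 2 ^ b else 0) ^^^ o) 0

theorem testBit_foldr (v c n : ℕ) : ∀ a : ℕ,
    ((List.range n).foldr (fun b o => (if v.testBit b then 2 ^ b else 0) ^^^ o) a).testBit c =
      xor (decide (c < n) && v.testBit c) (a.testBit c) := by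
  induction n with
  | zero => intro a; simp
  | succ n ih =>
    intro a
    rw [List.range_succ, List.foldr_append, List.foldr_cons, List.foldr_nil, ih, Nat.testBit_xor]
    by_cases hc : c = n
    · subst hc
      by_cases hv : v.testBit c = true <;> simp [hv]
    · have h1 : ((if v.testBit n then 2 ^ n else 0).testBit c) = false := by
        split_ifs <;> simp [Ne.symm hc]
      have h2 : decide (c < n + 1) = decide (c < n) := decide_eq_decide.2 (by omega)
      rw [h1, h2, Bool.false_xor]

theorem pos_lt : ∀ i : chevG2.Idx, pos i < 14 := by decide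

theorem dec_rebuild (v : ℕ) : dec (rebuild 28 v) = dec v := by
  funext i
  have := pos_lt i
  simp only [dec, rebuild, testBit_foldr, Nat.zero_testBit, Bool.xor_false,
    decide_eq_true (show 2 * pos i < 28 by omega), decide_eq_true (show 2 * pos i + 1 < 28 by omega),
    Bool.true_and]

theorem dec_eq_sum (v : ℕ) :
    dec v = ((List.range 28).map fun b => dec (if v.testBit b then 2 ^ b else 0)).sum := by
  rw [← dec_foldr]
  exact (dec_rebuild v).symm

/-- the image of one bit under a root element -/
def colOf (g b : ℕ) : ℕ := (colTab.getD g []).getD b 0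

/-- a linear map given by the images of the bits -/
def appRow : List ℕ → ℕ → ℕ
  | [], _ => 0
  | c :: cs, v => (if v.testBit 0 then c else 0) ^^^ appRow cs (v / 2)

theorem dec_appRow (l : List ℕ) : ∀ v : ℕ, dec (appRow l v) =
    ((List.range l.length).map fun b => dec (if v.testBit b then l.getD b 0 else 0)).sum := by
  induction l with
  | nil => exact fun _ => dec_zero
  | cons c cs ih =>
    intro v
    rw [appRow, dec_xor, ih, List.length_cons, List.range_succ_eq_map, List.map_cons, List.sum_cons,
      List.map_map]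
    refine congrArg₂ (· + ·) rfl (congrArg List.sum (List.map_congr_left fun b _ => ?_))
    simp [Nat.testBit_succ]

/-- a root element on patterns -/
def app (g v : ℕ) : ℕ := appRow (colTab.getD g []) v

theorem col_length : ∀ g : Fin 24, (colTab.getD g.val []).length = 28 := by decide +kernel

/-- the root of a letter -/
def rootIdx (g : ℕ) : Fin chevG2.nroots := ⟨g / 2 % 12, Nat.mod_lt _ (by decide)⟩

/-- the parameter of a letter -/
def rootPar (g : ℕ) : F4 := if g % 2 = 0 then ⟨true, false⟩ else ⟨false, true⟩

set_option maxHeartbeats 0 in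
theorem col_table : ∀ g : Fin 24, ∀ b : Fin 28,
    dec (colOf g.val b.val) = (chevG2.xMat F4 (rootIdx g.val) (rootPar g.val)) *ᵥ dec (2 ^ b.val) := by
  decide +kernel

theorem app_spec {g : ℕ} (hg : g < 24) (v : ℕ) :
    dec (app g v) = (chevG2.xMat F4 (rootIdx g) (rootPar g)) *ᵥ dec v := by
  rw [app, dec_appRow, col_length ⟨g, hg⟩, dec_eq_sum v, ← Matrix.mulVecLin_apply, map_list_sum,
    List.map_map]
  refine congrArg List.sum (List.map_congr_left fun b hb => ?_)
  have := col_table ⟨g, hg⟩ ⟨b, List.mem_range.1 hb⟩
  simp only [Function.comp_apply, Matrix.mulVecLin_apply]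
  split_ifs with h
  · exact this
  · rw [dec_zero, Matrix.mulVec_zero]

theorem rules : ChevGrp.Rules chevG2 F4 := Chev.rules_of_mem F4 (by simp)

/-- a root element -/
noncomputable def xe (g : ℕ) : G24 :=
  ⟨ChevGrp.xGL chevG2 F4 (rootIdx g).val (rootPar g), Subgroup.subset_closure ⟨rootIdx g, rootPar g, by
    rw [ChevGrp.val_xGL rules, ChevalleyDatum.x, dif_pos (rootIdx g).2]⟩⟩

/-- the action on the module -/
noncomputable def mv (g : G24) (u : Vec) : Vec := (g.1 : Matrix chevG2.Idx chevG2.Idx F4) *ᵥ u

theorem mv_mul (g h : G24) (u : Vec) : mv (g * h) u = mv g (mv h u) := by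
  simp only [mv, Subgroup.coe_mul, Units.val_mul, Matrix.mulVec_mulVec]

theorem mv_one (u : Vec) : mv 1 u = u := by simp [mv]

theorem mv_sum (g : G24) (l : List Vec) : mv g l.sum = (l.map (mv g)).sum := by
  show (g.1 : Matrix chevG2.Idx chevG2.Idx F4).mulVecLin l.sum = _
  rw [map_list_sum]
  rfl

theorem mv_xe {g : ℕ} (hg : g < 24) (v : ℕ) : mv (xe g) (dec v) = dec (app g v) := by
  rw [app_spec hg, mv, xe, ChevGrp.val_xGL rules, ChevalleyDatum.x, dif_pos (rootIdx g).2]

/-- a word in the root elements on patterns -/
def appW (w : List ℕ) (v : ℕ) : ℕ := w.foldr app v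

/-- a word in the root elements -/
noncomputable def wordEl (w : List ℕ) : G24 := (w.map xe).prod

theorem mv_word {w : List ℕ} (h : ∀ g ∈ w, g < 24) (v : ℕ) :
    mv (wordEl w) (dec v) = dec (appW w v) := by
  induction w with
  | nil => exact mv_one _
  | cons g w ih =>
    simp only [List.forall_mem_cons] at h
    rw [show wordEl (g :: w) = xe g * wordEl w from rfl, mv_mul, ih h.2, mv_xe h.1]
    rfl

/-- the check that a row gives the images of the bits under a word -/
def rowOK (w row : List ℕ) : Bool :=
  w.all (fun g => Nat.blt g 24) && (Nat.beq row.length 28 &&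
    (List.range 28).all fun b => Nat.beq (appW w (2 ^ b)) (row.getD b 0))

theorem mv_row {w row : List ℕ} (h : rowOK w row = true) (v : ℕ) :
    mv (wordEl w) (dec v) = dec (appRow row v) := by
  simp only [rowOK, Bool.and_eq_true] at h
  obtain ⟨hw, hl, hr⟩ := h
  have hw' : ∀ g ∈ w, g < 24 := fun g hg => Nat.blt_eq.mp (List.all_eq_true.1 hw g hg)
  rw [dec_appRow, Nat.eq_of_beq_eq_true hl, dec_eq_sum v, mv_sum, List.map_map]
  refine congrArg List.sum (List.map_congr_left fun b hb => ?_)
  rw [Function.comp_apply]
  split_ifs with hv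
  · rw [mv_word hw', Nat.eq_of_beq_eq_true (List.all_eq_true.1 hr b hb)]
  · rw [dec_zero, mv, Matrix.mulVec_zero]

theorem wordEl_append (v w : List ℕ) : wordEl (v ++ w) = wordEl v * wordEl w := by
  simp [wordEl]

end Cfsg.Agent.HJGFour
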