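import Cfsg.Agent.HJGFour.Maximal
import Cfsg.Agent.S1059

/-!
The action on the cosets of the Hall–Janko subgroup is extremely primitive.
-/

set_option autoImplicit false

open Cfsg Cfsg.Lie MulAction

namespace Cfsg.Agent.HJGFour

open Cfsg.Agent Cfsg.Agent.GFour25

theorem card_G24 : Nat.card G24 = 251596800 :=
  (Cfsg.Agent.S1059.result card_F4).trans (by norm_num)

theorem index_HJ : HJ.index = 416 := by
  have h := HJ.card_mul_index
  rw [card_HJ, card_G24] at h
  omega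

theorem card_cosets : Nat.card (G24 ⧸ HJ) = 416 := index_HJ

theorem ncard_orbit_pt (r : Fin 2) : (orbit ↥HJ (pt r)).ncard = [100, 315].getD r.val 0 := by
  rw [← index_stabilizer, ← index_interK r]
  exact (Subgroup.index_comap_of_surjective (stabilizer ↥HJ (pt r))
    (f := equivK.toMonoidHom) equivK.surjective).symm

theorem base_fixed (h : ↥HJ) : h • ((1 : G24) : G24 ⧸ HJ) = ((1 : G24) : G24 ⧸ HJ) := by
  show ((h.1 * 1 : G24) : G24 ⧸ HJ) = _
  rw [QuotientGroup.eq]
  simp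

theorem base_not_mem (r : Fin 2) : ((1 : G24) : G24 ⧸ HJ) ∉ orbit ↥HJ (pt r) := by
  intro h
  have h1 : (orbit ↥HJ ((1 : G24) : G24 ⧸ HJ)).ncard = 1 := by
    rw [show orbit ↥HJ ((1 : G24) : G24 ⧸ HJ) = {((1 : G24) : G24 ⧸ HJ)} from
      Set.eq_singleton_iff_unique_mem.2 ⟨mem_orbit_self _, by
        rintro _ ⟨h, rfl⟩
        exact base_fixed h⟩, Set.ncard_singleton]
  rw [orbit_eq_iff.2 h, ncard_orbit_pt] at h1
  fin_cases r <;> simp at h1

theorem orbits_disjoint {r s : Fin 2} (h : r ≠ s) :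
    Disjoint (orbit ↥HJ (pt r)) (orbit ↥HJ (pt s)) := by
  refine Set.disjoint_left.2 fun c hr hs => h ?_
  have e : (orbit ↥HJ (pt r)).ncard = (orbit ↥HJ (pt s)).ncard := by
    rw [← orbit_eq_iff.2 hr, ← orbit_eq_iff.2 hs]
  rw [ncard_orbit_pt, ncard_orbit_pt] at e
  fin_cases r <;> fin_cases s <;> simp_all

theorem cosets_cover (c : G24 ⧸ HJ) :
    c = ((1 : G24) : G24 ⧸ HJ) ∨ ∃ r, c ∈ orbit ↥HJ (pt r) := by
  have hu : insert ((1 : G24) : G24 ⧸ HJ) (orbit ↥HJ (pt 0) ∪ orbit ↥HJ (pt 1)) = Set.univ := by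
    refine Set.eq_of_subset_of_ncard_le (Set.subset_univ _) ?_
    rw [Set.ncard_univ, card_cosets, Set.ncard_insert_of_notMem,
      Set.ncard_union_eq (orbits_disjoint (by decide)), ncard_orbit_pt, ncard_orbit_pt]
    · norm_num
    · rintro (h | h) <;> exact base_not_mem _ h
  rcases (hu.symm ▸ Set.mem_univ c : c ∈ insert _ _) with h | h | h
  exacts [Or.inl h, Or.inr ⟨0, h⟩, Or.inr ⟨1, h⟩]

theorem isCoatom_HJ : IsCoatom HJ := by
  classical
  rw [← MulAction.stabilizer_quotient HJ]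
  refine isCoatom_stabilizer ((1 : G24) : G24 ⧸ HJ) card_cosets (by norm_num)
    (fun r => (Set.toFinite (orbit ↥HJ (pt r))).toFinset) ?_ ?_ ?_ ?_ ?_
  · intro r x hx y hy
    rw [Set.Finite.mem_toFinset] at hx hy
    obtain ⟨h, e⟩ : y ∈ orbit ↥HJ x := (orbit_eq_iff.2 hx).symm ▸ hy
    exact ⟨h.1, base_fixed h, e⟩
  · intro r
    rw [Set.Finite.mem_toFinset]
    exact base_not_mem r
  · intro r s h
    exact Set.Finite.disjoint_toFinset.2 (orbits_disjoint h)
  · intro c
    simpa only [Set.Finite.mem_toFinset] using cosets_cover c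
  · simp only [← Set.ncard_eq_toFinset_card _ (Set.toFinite _), ncard_orbit_pt]
    decide +kernel

theorem isCoatom_inter {x : G24} (hx : x ∉ HJ) :
    IsCoatom ((HJ ⊓ HJ.map (MulAut.conj x).toMonoidHom).subgroupOf HJ) := by
  have e : (HJ ⊓ HJ.map (MulAut.conj x).toMonoidHom).subgroupOf HJ =
      stabilizer ↥HJ ((x : G24) : G24 ⧸ HJ) := by
    ext h
    rw [mem_stab_iff, Subgroup.mem_subgroupOf, Subgroup.mem_inf]
    constructor
    · rintro ⟨-, a, ha, ea⟩
      have : a = x⁻¹ * h.1 * x := by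
        rw [← ea]
        show a = x⁻¹ * (x * a * x⁻¹) * x
        group
      exact this ▸ ha
    · intro hh
      refine ⟨h.2, _, hh, ?_⟩
      show x * (x⁻¹ * h.1 * x) * x⁻¹ = h.1
      group
  rw [e]
  rcases cosets_cover (x : G24 ⧸ HJ) with h | ⟨r, h, hr⟩
  · rw [QuotientGroup.eq, mul_one] at h
    exact absurd (inv_mem_iff.1 h) hx
  · have hp : IsCoatom (stabilizer ↥HJ (pt r)) := by
      have e' : stabilizer ↥HJ (pt r) = (interK r).map equivK.toMonoidHom :=
        (Subgroup.map_comap_eq_self_of_surjective equivK.surjective _).symm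
      rw [e']
      exact (equivK.mapSubgroup.isCoatom_iff _).2 (isCoatom_interK r)
    rw [← hr, stabilizer_smul_eq_stabilizer_map_conj]
    exact ((MulAut.conj h).mapSubgroup.isCoatom_iff _).2 hp

end Cfsg.Agent.HJGFour
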