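import Cfsg.Agent.HJGFour.Stab

/-!
The point stabilisers of the Hall–Janko group of index 100 and 315 are maximal.
-/

set_option autoImplicit false

open MulAction

namespace Cfsg.Agent.HJGFour

open Cfsg.Agent Janko2

theorem hundred_cover : interN 0 ≠ 21 ∧ interN 0 ≠ 7 ∧
    ∀ j : Fin 100, j = 0 ∨ interN j.val = 21 ∨ interN j.val = 7 := by
  decide +kernel

theorem isCoatom_Hs : IsCoatom Hs := by
  classical
  let : MulAction ↥K (Fin 100) := MulAction.compHom (Fin 100) hund
  have hst : stabilizer ↥K (0 : Fin 100) = Hs := Subgroup.ext fun g => Iff.rfl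
  have : IsPretransitive ↥K (Fin 100) :=
    (isPretransitive_iff_base 0).2 fun j => ⟨setRep j, setRep_zero j⟩
  obtain ⟨h1, h2, h3⟩ := orbit_table
  obtain ⟨c1, c2, c3⟩ := hundred_cover
  let C : Fin 2 → Finset (Fin 100) := fun r =>
    ((List.finRange 100).filter fun j : Fin 100 =>
      Nat.beq (interN j.val) ([21, 7].getD r.val 0)).toFinset
  have hmem : ∀ {r x}, x ∈ C r ↔ interN x.val = [21, 7].getD r.val 0 := fun {r x} => by
    simp [C, Nat.beq_eq]
  have hC : ∀ r, (C r).card = [36, 63].getD r.val 0 := fun r => by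
    rw [List.toFinset_card_of_nodup ((List.nodup_finRange 100).filter _)]
    exact h3 r
  rw [← hst]
  refine isCoatom_stabilizer (0 : Fin 100) (Nat.card_fin 100) (by norm_num) C ?_ ?_ ?_ ?_ ?_
  · intro r x hx y hy
    have key : ∀ z, z ∈ C r → ∃ g : ↥K, g ∈ Hs ∧
        hund g (Fin.ofNat 100 (hundredRoots.getD r.val 0)) = z := by
      intro z hz
      obtain ⟨w, -, hw⟩ := List.any_eq_true.1 (h1 r z (hmem.1 hz))
      rw [decide_eq_true_eq] at hw
      exact ⟨abW (ab2 w), Hs_eq ▸ abW_mem _, (hund_abW _ _).trans hw⟩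
    obtain ⟨g, hg, rfl⟩ := key x hx
    obtain ⟨g', hg', rfl⟩ := key y hy
    refine ⟨g' * g⁻¹, mul_mem hg' (inv_mem hg), ?_⟩
    show hund (g' * g⁻¹) (hund g _) = _
    rw [map_mul, Equiv.Perm.mul_apply, map_inv]
    exact congrArg _ ((hund g).symm_apply_apply _)
  · intro r h
    fin_cases r
    · exact c1 (hmem.1 h)
    · exact c2 (hmem.1 h)
  · intro i j hij
    refine Finset.disjoint_left.2 fun x hi hj => hij ?_
    have := (hmem.1 hi).symm.trans (hmem.1 hj)
    fin_cases i <;> fin_cases j <;> simp_all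
  · intro x
    rcases c3 x with h | h | h
    · exact Or.inl h
    · exact Or.inr ⟨0, hmem.2 h⟩
    · exact Or.inr ⟨1, hmem.2 h⟩
  · simp only [hC]
    decide +kernel

theorem isCoatom_line_stabilizer : IsCoatom (stabilizer ↥K (0 : Fin 315)) := by
  classical
  have : IsPretransitive ↥K (Fin 315) := (isPretransitive_iff_base 0).2 fun x => by
    obtain ⟨g, hg, e⟩ := K_transitive x
    exact ⟨⟨g, hg⟩, e⟩
  let C : Fin 5 → Finset (Fin 315) := fun i => Finset.univ.filter fun x => x.val ∈ subPts i.val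
  have hmem : ∀ {i x}, x ∈ C i ↔ x.val ∈ subPts i.val := fun {i x} => by simp [C]
  have hC : ∀ i, (C i).card = [80, 160, 32, 32, 10].getD i.val 0 := fun i => by
    obtain ⟨-, hnd, hlen, -, hlt⟩ := sub_facts.2.1 i
    rw [← hlen, ← List.toFinset_card_of_nodup hnd]
    refine Finset.card_bij (fun x _ => x.val) (fun x hx => List.mem_toFinset.2 (hmem.1 hx))
      (fun x _ y _ h => Fin.ext h) (fun b hb => ?_)
    have hb' := List.mem_toFinset.1 hb
    exact ⟨⟨b, Nat.blt_eq.mp (List.all_eq_true.1 hlt b hb')⟩, hmem.2 hb', rfl⟩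
  refine isCoatom_stabilizer (0 : Fin 315) (Nat.card_fin 315) (by norm_num) C
    (fun i x hx y hy => sub_transitive i (hmem.1 hx) (hmem.1 hy))
    (fun i h => by
      have := (sub_facts.2.1 i).2.2.2.1
      rw [List.contains_iff_mem.2 (show (0 : ℕ) ∈ subPts i.val from hmem.1 h)] at this
      exact Bool.noConfusion this)
    (fun i j hij => Finset.disjoint_left.2 fun x hi hj => by
      have := List.all_eq_true.1 (sub_facts.2.2.1 i j hij) _ (hmem.1 hi)
      rw [List.contains_iff_mem.2 (hmem.1 hj)] at this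
      exact Bool.noConfusion this)
    (fun x => by
      have h := List.all_eq_true.1 sub_facts.2.2.2 x.val (List.mem_range.2 x.2)
      rcases (Bool.or_eq_true _ _).mp h with h | h
      · exact Or.inl (Fin.ext (Nat.eq_of_beq_eq_true h))
      · obtain ⟨i, hi, hi'⟩ := List.any_eq_true.1 h
        exact Or.inr ⟨⟨i, List.mem_range.1 hi⟩, hmem.2 (List.contains_iff_mem.1 hi')⟩) ?_
  simp only [hC]
  decide +kernel

theorem interK_zero : interK 0 = Hs :=
  (isCoatom_Hs.le_iff.1 Hs_le_interK).resolve_left (interK_ne_top 0)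

theorem interK_one : interK 1 = stabilizer ↥K (0 : Fin 315) :=
  (isCoatom_line_stabilizer.le_iff.1 stab_le_interK).resolve_left (interK_ne_top 1)

theorem isCoatom_interK (r : Fin 2) : IsCoatom (interK r) := by
  fin_cases r
  · exact interK_zero ▸ isCoatom_Hs
  · exact interK_one ▸ isCoatom_line_stabilizer

theorem index_interK (r : Fin 2) : (interK r).index = [100, 315].getD r.val 0 := by
  fin_cases r
  · show (interK 0).index = 100
    rw [interK_zero, index_Hs]
  · show (interK 1).index = 315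
    have : IsPretransitive ↥K (Fin 315) := (isPretransitive_iff_base 0).2 fun x => by
      obtain ⟨g, hg, e⟩ := K_transitive x
      exact ⟨⟨g, hg⟩, e⟩
    rw [interK_one, index_stabilizer_of_transitive, Nat.card_fin]

end Cfsg.Agent.HJGFour
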