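import Cfsg.Agent.HJGFour.Bits
import Cfsg.Agent.Janko2.Hundred

/-!
The Hall–Janko group inside the group of type G2 over four elements, on an orbit of 315 vectors.
-/

set_option autoImplicit false

open Cfsg Cfsg.Lie Matrix

namespace Cfsg.Agent.HJGFour

open Cfsg.Agent.GFour25

/-- a vector pattern of the orbit -/
def vec (j : ℕ) : ℕ := vecTab.getD j 0

/-- a vector of the orbit -/
def vv (x : Fin 315) : Vec := dec (vec x.val)

/-- a sum of vectors of the orbit as a pattern -/
def xs (l : List ℕ) : ℕ := l.foldr (fun j o => vec j ^^^ o) 0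

theorem dec_xs (l : List ℕ) : dec (xs l) = (l.map fun j => dec (vec j)).sum := dec_foldr _ _

theorem vec_separate : (vecTab.Nodup ∧ vecTab.length = 315) ∧
    ∀ x : Fin 315, enc (dec (vec x.val)) = vec x.val := by
  decide +kernel

theorem vv_injective : Function.Injective vv := by
  intro a b h
  have h1 : vec a.val = vec b.val := by
    rw [← vec_separate.2 a, ← vec_separate.2 b]
    exact congrArg enc h
  have hl := vec_separate.1.2
  simp only [vec, List.getD_eq_getElem _ _ (show a.val < vecTab.length by omega),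
    List.getD_eq_getElem _ _ (show b.val < vecTab.length by omega)] at h1
  exact Fin.ext ((vec_separate.1.1.getElem_inj_iff).1 h1)

theorem span_table :
    (∀ b : Fin 28, xs (bitComb.getD b.val []) = 2 ^ b.val ∧
      (bitComb.getD b.val []).all (fun j => spanPts.contains j) = true) ∧
    spanPts.all (fun j => Nat.blt j 315) = true ∧
    ∀ i : chevG2.Idx, Pi.single i (1 : F4) = dec (2 ^ (2 * pos i)) := by
  decide +kernel

theorem span_lt {j : ℕ} (hj : j ∈ spanPts) : j < 315 :=
  Nat.blt_eq.mp (List.all_eq_true.1 span_table.2.1 j hj)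

/-- Two elements agreeing on the spanning set are equal. -/
theorem eq_of_span {g h : G24}
    (e : ∀ j ∈ spanPts, mv g (dec (vec j)) = mv h (dec (vec j))) : g = h := by
  refine Subtype.ext (Units.ext (Matrix.ext fun r c => ?_))
  have hb : ∀ b : Fin 28, mv g (dec (2 ^ b.val)) = mv h (dec (2 ^ b.val)) := by
    intro b
    obtain ⟨h1, h2⟩ := span_table.1 b
    rw [← h1, dec_xs, mv_sum, mv_sum, List.map_map, List.map_map]
    exact congrArg List.sum (List.map_congr_left fun j hj =>
      e j (List.contains_iff_mem.1 (List.all_eq_true.1 h2 j hj)))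
  have h3 := hb ⟨2 * pos c, by have := pos_lt c; omega⟩
  rw [show dec (2 ^ (2 * pos c)) = Pi.single c (1 : F4) from (span_table.2.2 c).symm] at h3
  have h4 := congrFun h3 r
  simpa [mv, Matrix.mulVec_single_one] using h4

/-- the word of an involution -/
def zWord (k : ℕ) : List ℕ := zWords.getD k []

/-- the four involutions -/
noncomputable def zEl (k : Fin 4) : G24 := wordEl (zWord k.val)

theorem z_rows : ∀ k : Fin 4, rowOK (zWord k.val) (zRows.getD k.val []) = true := by decide +kernel

/-- an involution on patterns -/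
def zApp (k v : ℕ) : ℕ := appRow (zRows.getD k []) v

theorem mv_zEl (k : Fin 4) (v : ℕ) : mv (zEl k) (dec v) = dec (zApp k.val v) := mv_row (z_rows k) v

set_option maxHeartbeats 0 in
theorem z_table : ∀ k : Fin 4, ((List.range 315).all fun x =>
    Nat.beq (zApp k.val (vec x)) (vec (Janko2.papp k.val x))) = true := by
  decide +kernel

/-- an element acts on the orbit as a permutation -/
def Acts (g : G24) (σ : Equiv.Perm (Fin 315)) : Prop := ∀ x : Fin 315, mv g (vv x) = vv (σ x)

theorem acts_unique {g : G24} {σ τ : Equiv.Perm (Fin 315)} (h : Acts g σ) (h' : Acts g τ) : σ = τ :=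
  Equiv.ext fun x => vv_injective ((h x).symm.trans (h' x))

theorem Acts.mul {g h : G24} {σ τ : Equiv.Perm (Fin 315)} (hg : Acts g σ) (hh : Acts h τ) :
    Acts (g * h) (σ * τ) := fun x => by rw [mv_mul, hh x, hg (τ x)]; rfl

theorem Acts.inv {g : G24} {σ : Equiv.Perm (Fin 315)} (hg : Acts g σ) : Acts g⁻¹ σ⁻¹ := fun x => by
  have h := hg (σ⁻¹ x)
  rw [show σ (σ⁻¹ x) = x from σ.apply_symm_apply x] at h
  rw [← h, ← mv_mul, inv_mul_cancel, mv_one]

theorem eq_of_acts {g h : G24} {σ : Equiv.Perm (Fin 315)} (hg : Acts g σ) (hh : Acts h σ) : g = h :=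
  eq_of_span fun j hj => (hg ⟨j, span_lt hj⟩).trans (hh ⟨j, span_lt hj⟩).symm

theorem acts_zEl (k : Fin 4) : Acts (zEl k) (Janko2.rho (Janko2.genG k)) := fun x => by
  show mv (zEl k) (dec (vec x.val)) = _
  rw [mv_zEl,
    Nat.eq_of_beq_eq_true (List.all_eq_true.1 (z_table k) x.val (List.mem_range.2 x.2)),
    vv, Janko2.genG_table]

/-- the Hall–Janko subgroup -/
noncomputable def HJ : Subgroup G24 := Subgroup.closure (Set.range zEl)

theorem exists_acts {g : G24} (hg : g ∈ HJ) : ∃ σ ∈ Janko2.K, Acts g σ := by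
  induction hg using Subgroup.closure_induction with
  | mem g hg =>
    obtain ⟨k, rfl⟩ := hg
    exact ⟨_, Subgroup.subset_closure ⟨k, rfl⟩, acts_zEl k⟩
  | one => exact ⟨1, one_mem _, fun x => mv_one _⟩
  | mul a b _ _ iha ihb =>
    obtain ⟨σ, hσ, hs⟩ := iha
    obtain ⟨τ, hτ, ht⟩ := ihb
    exact ⟨_, mul_mem hσ hτ, hs.mul ht⟩
  | inv a _ ih =>
    obtain ⟨σ, hσ, hs⟩ := ih
    exact ⟨_, inv_mem hσ, hs.inv⟩

theorem exists_preimage {σ : Equiv.Perm (Fin 315)} (hσ : σ ∈ Janko2.K) : ∃ g ∈ HJ, Acts g σ := by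
  induction hσ using Subgroup.closure_induction with
  | mem σ hσ =>
    obtain ⟨k, rfl⟩ := hσ
    exact ⟨_, Subgroup.subset_closure ⟨k, rfl⟩, acts_zEl k⟩
  | one => exact ⟨1, one_mem _, fun x => mv_one _⟩
  | mul a b _ _ iha ihb =>
    obtain ⟨g, hg, hs⟩ := iha
    obtain ⟨h, hh, ht⟩ := ihb
    exact ⟨_, mul_mem hg hh, hs.mul ht⟩
  | inv a _ ih =>
    obtain ⟨g, hg, hs⟩ := ih
    exact ⟨_, inv_mem hg, hs.inv⟩

/-- the element of the subgroup with a given permutation -/
noncomputable def lift (σ : ↥Janko2.K) : ↥HJ :=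
  ⟨(exists_preimage σ.2).choose, (exists_preimage σ.2).choose_spec.1⟩

theorem acts_lift (σ : ↥Janko2.K) : Acts (lift σ).1 σ.1 := (exists_preimage σ.2).choose_spec.2

/-- the isomorphism with the group on 315 lines -/
noncomputable def equivK : ↥Janko2.K ≃* ↥HJ where
  toFun := lift
  invFun g := ⟨(exists_acts g.2).choose, (exists_acts g.2).choose_spec.1⟩
  left_inv σ := Subtype.ext (acts_unique (exists_acts (lift σ).2).choose_spec.2 (acts_lift σ))
  right_inv g := Subtype.ext (eq_of_acts (acts_lift _) (exists_acts g.2).choose_spec.2)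
  map_mul' σ τ := Subtype.ext (eq_of_acts (acts_lift (σ * τ)) ((acts_lift σ).mul (acts_lift τ)))

theorem card_HJ : Nat.card ↥HJ = 604800 := by
  rw [← Nat.card_congr equivK.toEquiv, Janko2.card_K]

theorem iso_HJ : Cfsg.Spor.IsoJ2 ↥HJ := ⟨(Janko2.j2Equiv.trans equivK).symm⟩

end Cfsg.Agent.HJGFour
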