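import Mathlib

/-!
Maximality of a point stabiliser from the lengths of its suborbits.
-/

set_option autoImplicit false

namespace Cfsg.Agent.HJGFour

open MulAction

variable {G α : Type*} [Group G] [MulAction G α]

theorem ncard_orbit_eq_relIndex [Finite G] (L : Subgroup G) (a : α) :
    (orbit ↥L a).ncard = (stabilizer G a).relIndex L := by
  rw [← Nat.card_coe_set_eq, Nat.card_congr (orbitEquivQuotientStabilizer ↥L a), Subgroup.relIndex]
  rfl

/-- A transitive group whose suborbit lengths admit no proper block length has maximal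
point stabilisers. -/
theorem isCoatom_stabilizer [Finite G] [IsPretransitive G α] [DecidableEq α] (a : α) {n k : ℕ}
    (hn : Nat.card α = n) (hn1 : 1 < n) (C : Fin k → Finset α)
    (hC : ∀ i, ∀ x ∈ C i, ∀ y ∈ C i, ∃ g : G, g • a = a ∧ g • x = y) (ha : ∀ i, a ∉ C i)
    (hdis : ∀ i j, i ≠ j → Disjoint (C i) (C j)) (hcover : ∀ x, x = a ∨ ∃ i, x ∈ C i)
    (arith : ∀ T : Finset (Fin k), (1 + ∑ i ∈ T, (C i).card) ∣ n →
      1 + ∑ i ∈ T, (C i).card = 1 ∨ 1 + ∑ i ∈ T, (C i).card = n) :
    IsCoatom (stabilizer G a) := by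
  classical
  have hidx : (stabilizer G a).index = n := by rw [index_stabilizer_of_transitive, hn]
  refine ⟨fun h => by rw [h, Subgroup.index_top] at hidx; omega, fun L hL => ?_⟩
  let T := (Finset.univ : Finset (Fin k)).filter fun i => ∃ x ∈ C i, x ∈ orbit ↥L a
  have hO : orbit ↥L a = ↑(insert a (T.biUnion C)) := by
    ext x
    simp only [Finset.coe_insert, Finset.coe_biUnion, Set.mem_insert_iff, Set.mem_iUnion,
      Finset.mem_coe, T, Finset.mem_filter, Finset.mem_univ, true_and, exists_prop]
    constructor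
    · intro hx
      rcases hcover x with h | ⟨i, hi⟩
      · exact Or.inl h
      · exact Or.inr ⟨i, ⟨x, hi, hx⟩, hi⟩
    · rintro (rfl | ⟨i, ⟨y, hy, ⟨⟨m, hm⟩, rfl⟩⟩, hx⟩)
      · exact mem_orbit_self _
      · obtain ⟨g, hga, hgy⟩ := hC i _ hy x hx
        refine ⟨⟨g * m, mul_mem (hL.le hga) hm⟩, ?_⟩
        show (g * m) • a = x
        rw [mul_smul]
        exact hgy
  have hcard : (stabilizer G a).relIndex L = 1 + ∑ i ∈ T, (C i).card := by
    rw [← ncard_orbit_eq_relIndex, hO, Set.ncard_coe_finset, Finset.card_insert_of_notMem,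
      Finset.card_biUnion (fun i _ j _ h => hdis i j h), Nat.add_comm]
    simp only [Finset.mem_biUnion, not_exists, not_and]
    exact fun i _ => ha i
  have hmul := Subgroup.relIndex_mul_index hL.le
  rw [hidx] at hmul
  rcases arith T (hcard ▸ ⟨L.index, hmul.symm⟩) with h | h
  · exact absurd (Subgroup.relIndex_eq_one.1 (hcard.trans h)) hL.not_ge
  · refine Subgroup.index_eq_one.1 (Nat.eq_of_mul_eq_mul_left (show 0 < n by omega) ?_)
    rw [hcard, h] at hmul
    omega

end Cfsg.Agent.HJGFour
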