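import Cfsg.Agent.HJGFour.Orbit
import Cfsg.Agent.HJGFour.Suborbit

/-!
The two double coset representatives: intersections with the Hall–Janko subgroup.
-/

set_option autoImplicit false

open Cfsg Cfsg.Lie MulAction

namespace Cfsg.Agent.HJGFour

open Cfsg.Agent

/-- the word of a representative -/
def yWord (r : ℕ) : List ℕ := yWords.getD r []

/-- a representative -/
noncomputable def yEl (r : Fin 2) : G24 := wordEl (yWord r.val)

theorem y_rows : ∀ r : Fin 2, rowOK (yWord r.val) (yRows.getD r.val []) = true := by decide +kernel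

/-- a representative on patterns -/
def yApp (r v : ℕ) : ℕ := appRow (yRows.getD r []) v

theorem mv_yEl (r : Fin 2) (v : ℕ) : mv (yEl r) (dec v) = dec (yApp r.val v) := mv_row (y_rows r) v

/-- the check for one conjugated generator -/
def sigOK (r : ℕ) (f : ℕ → ℕ) (w : List ℕ) : Bool :=
  w.all (fun k => Nat.blt k 32) && (List.range 28).all fun i =>
    ((yComb.getD r []).getD i []).all (fun j => Nat.blt j 315) &&
      (Nat.beq (xs ((yComb.getD r []).getD i [])) (yApp r (vec (spanPts.getD i 0))) &&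
        Nat.beq (xs (((yComb.getD r []).getD i []).map f))
          (yApp r (vec (Janko2.applyW w (spanPts.getD i 0)))))

theorem span_length : spanPts.length = 28 := by decide +kernel

theorem conj_mem_of_sigOK (r : Fin 2) (σ : ↥Janko2.K) {f : ℕ → ℕ}
    (hf : ∀ x : Fin 315, (σ.1 x).val = f x.val) {w : List ℕ} (h : sigOK r.val f w = true) :
    (yEl r)⁻¹ * (lift σ).1 * yEl r ∈ HJ := by
  rw [sigOK, Bool.and_eq_true] at h
  obtain ⟨hw, h⟩ := h
  have hw' : ∀ k ∈ w, k < 32 := fun k hk => Nat.blt_eq.mp (List.all_eq_true.1 hw k hk)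
  set b := lift ⟨Janko2.elW w, Janko2.elW_mem w⟩ with hb
  have e : (lift σ).1 * yEl r = yEl r * b.1 := by
    refine eq_of_span fun j hj => ?_
    obtain ⟨i, hi, rfl⟩ := List.getElem_of_mem hj
    have hlt := span_lt hj
    have h' := List.all_eq_true.1 h i (List.mem_range.2 (span_length ▸ hi))
    rw [List.getD_eq_getElem _ _ hi] at h'
    simp only [Bool.and_eq_true] at h'
    obtain ⟨hc, h1, h2⟩ := h'
    have hbx : mv b.1 (dec (vec spanPts[i])) = dec (vec (Janko2.applyW w spanPts[i])) := by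
      have := acts_lift ⟨Janko2.elW w, Janko2.elW_mem w⟩ ⟨_, hlt⟩
      rw [vv, vv, Janko2.elW_apply hw'] at this
      exact this
    rw [mv_mul, mv_mul, hbx, mv_yEl, mv_yEl, ← Nat.eq_of_beq_eq_true h1,
      ← Nat.eq_of_beq_eq_true h2, dec_xs, dec_xs, mv_sum, List.map_map, List.map_map]
    refine congrArg List.sum (List.map_congr_left fun a ha => ?_)
    have := acts_lift σ ⟨a, Nat.blt_eq.mp (List.all_eq_true.1 hc a ha)⟩
    rw [vv, vv, hf] at this
    exact this
  rw [mul_assoc, e, inv_mul_cancel_left]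
  exact b.2

set_option maxHeartbeats 0 in
theorem sig_table_zero :
    ∀ k : Fin 2, sigOK 0 (Janko2.tapp k.val) ((sigWords.getD 0 []).getD k.val []) = true := by
  decide +kernel

set_option maxHeartbeats 0 in
theorem sig_table_one : ∀ a : Fin (Janko2.sL 1).length,
    sigOK 1 (Janko2.papp ((Janko2.sL 1).get a)) ((sigWords.getD 1 []).getD a.val []) = true := by
  decide +kernel

set_option maxHeartbeats 0 in
theorem wit_table : ∀ r : Fin 2, (witTab.getD r.val (0, 0)).1 < 4 ∧ (witTab.getD r.val (0, 0)).2 < 315 ∧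
    ∀ j : Fin 315,
      enc (dec (zApp (witTab.getD r.val (0, 0)).1 (yApp r.val (vec (witTab.getD r.val (0, 0)).2)))) ≠
        enc (dec (yApp r.val (vec j.val))) := by
  decide +kernel

/-- a coset of the Hall–Janko subgroup -/
noncomputable def pt (r : Fin 2) : G24 ⧸ HJ := (yEl r : G24)

theorem mem_stab_iff (x : G24) (h : ↥HJ) :
    h ∈ stabilizer ↥HJ ((x : G24) : G24 ⧸ HJ) ↔ x⁻¹ * h.1 * x ∈ HJ := by
  rw [mem_stabilizer_iff]
  show ((h.1 * x : G24) : G24 ⧸ HJ) = (x : G24 ⧸ HJ) ↔ _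
  rw [eq_comm, QuotientGroup.eq, mul_assoc]

/-- the intersection, inside the group on 315 lines -/
noncomputable def interK (r : Fin 2) : Subgroup ↥Janko2.K :=
  (stabilizer ↥HJ (pt r)).comap equivK.toMonoidHom

theorem mem_interK {r : Fin 2} {σ : ↥Janko2.K} :
    σ ∈ interK r ↔ (yEl r)⁻¹ * (lift σ).1 * yEl r ∈ HJ :=
  mem_stab_iff _ _

theorem interK_ne_top (r : Fin 2) : interK r ≠ ⊤ := by
  intro htop
  obtain ⟨hk, hx, hj⟩ := wit_table r
  set k : Fin 4 := ⟨_, hk⟩
  have hσ := mem_interK.1 (htop ▸ Subgroup.mem_top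
    (⟨Janko2.rho (Janko2.genG k), Subgroup.subset_closure ⟨k, rfl⟩⟩ : ↥Janko2.K) :
      (⟨Janko2.rho (Janko2.genG k), Subgroup.subset_closure ⟨k, rfl⟩⟩ : ↥Janko2.K) ∈ interK r)
  rw [eq_of_acts (acts_lift _) (acts_zEl k)] at hσ
  obtain ⟨τ, -, hτ⟩ := exists_acts hσ
  have h := congrArg (mv (yEl r)) (hτ ⟨_, hx⟩)
  rw [← mv_mul, mul_assoc, mul_inv_cancel_left, mv_mul, vv, mv_yEl] at h
  simp only [vv] at h
  rw [mv_yEl, mv_zEl] at h
  exact hj (τ ⟨_, hx⟩) (congrArg enc h)

theorem Hs_le_interK : Janko2.Hs ≤ interK 0 := by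
  rw [Janko2.Hs_eq, Janko2.Lab, Subgroup.closure_le]
  rintro _ ⟨k, rfl⟩
  exact mem_interK.2 (conj_mem_of_sigOK 0 _ (Janko2.abEl_apply k) (sig_table_zero k))

theorem stab_le_interK : stabilizer ↥Janko2.K (0 : Fin 315) ≤ interK 1 := by
  intro g hg
  have h1 : g.1 ∈ Janko2.levelGrp 1 := Janko2.mem_level_one g.2 hg
  have hle : Janko2.levelGrp 1 ≤ (interK 1).map Janko2.K.subtype := by
    rw [Janko2.levelGrp, Subgroup.closure_le]
    rintro _ ⟨a, rfl⟩
    refine ⟨⟨Janko2.sE 1 a, Janko2.el_mem _⟩, mem_interK.2 ?_, rfl⟩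
    exact conj_mem_of_sigOK 1 _ (fun x => Janko2.el_apply
      (Janko2.sL_one_facts _ (List.get_mem _ a)).1 x) (sig_table_one a)
  obtain ⟨h, hh, e⟩ := hle h1
  rwa [← Subtype.ext e]

end Cfsg.Agent.HJGFour
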